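import Cfsg.Agent.AltCent.Fixed
import Cfsg.Agent.AltCent.FiveS.Data

/-! # FiveS: terms 0 (generated certificate data) -/

set_option autoImplicit false
set_option maxRecDepth 100000
set_option maxHeartbeats 4000000

namespace CfsgLib.AltCent.FiveS

def terms0 : List Term :=
  [⟨[561, 834, 1685, 2166], 436066194480, 0, 2, [(6, 86, 2), (12, 90, 2), (14, 96, 3), (12, 72, 3), (14, 68, 2)]⟩,
   ⟨[320, 1073, 2149, 2439], 521173733940, 0, 2, [(13, 34, 3), (15, 87, 3), (15, 59, 2), (11, 99, 2), (13, 97, 2)]⟩,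
   ⟨[800, 1925], 649991553810, 0, 3, [(13, 94, 0), (13, 51, 1), (7, 89, 0), (11, 44, 0), (15, 44, 0)]⟩,
   ⟨[], 654820258320, 1, 4, [(2, 0, 0), (6, 0, 0), (7, 0, 0), (6, 34, 2), (7, 4, 2)]⟩,
   ⟨[320, 1073, 2149, 2439], 521173733940, 1, 1, [(6, 22, 2), (0, 22, 0), (7, 20, 0), (6, 43, 0), (2, 45, 0)]⟩,
   ⟨[], 654820258320, 2, 1, [(15, 0, 0), (13, 30, 1), (15, 3, 1), (14, 34, 2), (13, 56, 3), (14, 59, 3), (15, 13, 3)]⟩,
   ⟨[561, 834, 1685, 2166], 436066194480, 2, 1, [(15, 92, 1), (13, 70, 1), (15, 63, 0), (15, 96, 3), (12, 73, 1), (15, 68, 2), (14, 69, 0)]⟩]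

theorem terms0_ok : termsOK 10 bases tR cR T B terms0 = true := by decide +kernel

end CfsgLib.AltCent.FiveS
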