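import Cfsg.Agent.AltCent.Fixed
import Cfsg.Agent.AltCent.FiveS.Data
import Cfsg.Agent.AltCent.FiveS.Reps
import Cfsg.Agent.AltCent.FiveS.Terms0

/-! # FiveS: conclusion (generated certificate data) -/

set_option autoImplicit false
set_option maxRecDepth 100000
set_option maxHeartbeats 4000000

namespace CfsgLib.AltCent.FiveS

def terms : List Term := terms0

theorem sum_ok : eqMod 5 (termPairs 5 bases T B terms) [(0, 1)] [(2, 1), (6, 3), (7, 3), (11, 1), (12, 2), (13, 3), (14, 2), (15, 4)] [] = true := by decide +kernel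

theorem terms_ok : termsOK 10 bases tR cR T B terms = true := terms0_ok

variable {V : Type*} [AddCommGroup V] [DistribMulAction (alternatingGroup (Fin 10)) V]

/-- The table acts by scalars as soon as its generators do. -/
theorem acts (hp : ∀ x : V, 5 • x = 0) (v : V)
    (hg : ∀ g ∈ gens, el 10 g.1 • v = g.2 • v) : Acts (n := 10) v B := by
  have z := zero_ok
  simp only [Bool.and_eq_true] at z
  refine acts_of_actsOK (by norm_num) hp v B gens (fun g hgm => ⟨?_, hg g hgm⟩) steps
    (Nat.eq_of_beq_eq_true z.1.1) (Nat.eq_of_beq_eq_true z.1.2) steps_ok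
  have hr := goodTab_of_repsOK genWords rfl gens_ok
  simp only [gens, List.mem_cons, List.not_mem_nil, or_false] at hgm
  rcases hgm with rfl | rfl | rfl | rfl
  · exact (show get 0x6789543210987651234059876432109876504321 0 = 654820000545 by decide +kernel) ▸ hr 0 (by decide)
  · exact (show get 0x6789543210987651234059876432109876504321 1 = 384523579920 by decide +kernel) ▸ hr 1 (by decide)
  · exact (show get 0x6789543210987651234059876432109876504321 2 = 654820057920 by decide +kernel) ▸ hr 2 (by decide)
  · exact (show get 0x6789543210987651234059876432109876504321 3 = 444685627920 by decide +kernel) ▸ hr 3 (by decide)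

/-- No nonzero vector satisfies the hypotheses. -/
theorem eq_zero (hp : ∀ x : V, 5 • x = 0) (hX : NoFix 10 V) (v : V)
    (hg : ∀ g ∈ gens, el 10 g.1 • v = g.2 • v) (h0 : bval (n := 10) v base0 = 0) (h1 : bval (n := 10) v base1 = 0) (h2 : bval (n := 10) v base2 = 0) : v = 0 := by
  have hB := acts hp v hg
  have z := zero_ok
  have hR := reps_ok
  simp only [Bool.and_eq_true] at z hR
  have hb : ∀ b ∈ bases, GoodTab 10 b.tbl b.cnt ∧ bval (n := 10) v b = 0 := by
    intro b hb
    simp only [bases, List.mem_append, List.mem_cons, List.not_mem_nil, or_false] at hb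
    rcases hb with ((rfl | rfl | rfl) | hb) | rfl
    · exact ⟨goodTab_of_repsOK baseWords0 rfl baseWords0_ok, h0⟩
    · exact ⟨goodTab_of_repsOK baseWords1 rfl baseWords1_ok, h1⟩
    · exact ⟨goodTab_of_repsOK baseWords2 rfl baseWords2_ok, h2⟩
    · exact fixesOK_spec (by norm_num) hp hX hB fixes fixes_ok b hb
    · exact trivBase_spec (by norm_num) hp (by norm_num) v
  have hT : GoodTab 10 T.tbl T.cnt := by
    have hs := sub_ok
    simp only [subOK, Bool.and_eq_true, List.all_eq_true, List.mem_range, Nat.blt_eq] at hs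
    intro k hk
    rw [Nat.eq_of_beq_eq_true (hs.2 k hk).1.1.2]
    exact hB.good _ (hs.2 k hk).1.1.1
  exact eq_zero_of_cert (by norm_num) hp hB sub_ok (by decide) (Nat.eq_of_beq_eq_true z.2)
    (termsOK_spec (by norm_num) hp hB hT tau_ok
      (goodTab_of_repsOK rWords (Nat.eq_of_beq_eq_true hR.1) hR.2) (fun b h => (hb b h).1)
      (fun b h => (hb b h).2) terms terms_ok) sum_ok

end CfsgLib.AltCent.FiveS
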